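import Cfsg.Agent.LieTori.RegularTorus
import Cfsg.Agent.CentralExt.RootEmbed

/-!
Exact action of the representatives of the Weyl group on the torus parameters, in any system of root elements
(owner: helper35).
-/

set_option autoImplicit false

namespace Cfsg.Agent.LieTori

open Cfsg.Lie Cfsg.Agent.ChevGrp Matrix

variable {D : ChevalleyDatum} {F : Type*} [Field F] {G : Type*} [Group G] (S : Sys D F G) {len : ℕ → ℕ}

theorem nI_conj_tau (hS : Rules D F) (hR : RootTable D len) (hM : S.HMul) (i : Fin D.rank)
    (c : Fin D.rank → Fˣ) :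
    S.nI i * S.tau hS hR hM c * (S.nI i)⁻¹ =
      S.tau hS hR hM (fun k => ∏ j, c j ^ reflMat (cartanMat D) i j k) := by
  classical
  have hp := hR.simple_lt i i.2
  set a : ℕ → F := fun s => ((∏ j : Fin D.rank, c j ^ D.cartan j s : Fˣ) : F) with ha'
  set u : Fˣ := ∏ j : Fin D.rank, c j ^ D.cartan j (D.simple i) with hu
  have ha : ∀ s < D.nroots, a (D.neg s) * a s = 1 := fun s hs => by
    have hn : ∀ j : Fin D.rank, D.cartan j (D.neg s) = -D.cartan j s := fun j => hR.cartan_neg j.2 hs
    simp only [ha', ← Units.val_mul, ← Finset.prod_mul_distrib, hn, _root_.zpow_neg, inv_mul_cancel,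
      Finset.prod_const_one, Units.val_one]
  have e := Sys.ConjP.nEl (S := S) hR (w := ([] : List (Fin D.rank))) ha
    (fun s hs t => by rw [act_nil]; exact tau_conj_x S hS hR hM c s hs t) hp 1
  rw [act_nil, mul_one, S.nEl_eq hR hp (a _)] at e
  have hh : S.hEl (D.simple i) (u : F) = S.tau hS hR hM (Pi.mulSingle i u) := by
    rw [Sys.tau, MonoidHom.noncommPiCoprod_mulSingle]
    rfl
  have e' : S.nI i * S.tau hS hR hM c * (S.nI i)⁻¹ =
      (S.hEl (D.simple i) (u : F))⁻¹ * S.tau hS hR hM c := by
    change S.tau hS hR hM c * S.nI i * (S.tau hS hR hM c)⁻¹ = S.hEl (D.simple i) (u : F) * S.nI i at e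
    have e2 : S.tau hS hR hM c * S.nI i = S.hEl (D.simple i) (u : F) * S.nI i * S.tau hS hR hM c :=
      mul_inv_eq_iff_eq_mul.1 e
    calc S.nI i * S.tau hS hR hM c * (S.nI i)⁻¹
        = (S.hEl (D.simple i) (u : F))⁻¹ * (S.hEl (D.simple i) (u : F) * S.nI i * S.tau hS hR hM c) *
            (S.nI i)⁻¹ := by group
      _ = _ := by rw [← e2]; group
  rw [e', hh, ← map_inv, ← map_mul]
  congr 1
  funext k
  rw [Pi.mul_apply, Pi.inv_apply]
  by_cases hk : k = i
  · subst hk
    rw [Pi.mulSingle_eq_same]
    have hterm : ∀ j, c j ^ reflMat (cartanMat D) k j k =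
        (if j = k then c j else 1) * (c j ^ D.cartan j (D.simple k))⁻¹ := fun j => by
      have : reflMat (cartanMat D) k j k = (if j = k then 1 else 0) - D.cartan j (D.simple k) := by
        simp [reflMat, Matrix.one_apply, cartanMat, Matrix.mul_apply, Matrix.single_apply]
      rw [this, _root_.zpow_sub]
      split_ifs <;> simp
    simp only [hterm, Finset.prod_mul_distrib, Finset.prod_ite_eq', Finset.mem_univ, if_true,
      Finset.prod_inv_distrib, hu]
    exact mul_comm _ _
  · rw [Pi.mulSingle_eq_of_ne hk, inv_one, one_mul]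
    have hterm : ∀ j, c j ^ reflMat (cartanMat D) i j k = if j = k then c j else 1 := fun j => by
      have : reflMat (cartanMat D) i j k = if j = k then 1 else 0 := by
        simp [reflMat, Matrix.one_apply, Matrix.mul_apply, Matrix.single_apply, Ne.symm hk]
      rw [this]
      split_ifs <;> simp
    simp only [hterm, Finset.prod_ite_eq', Finset.mem_univ, if_true]

theorem nW_conj_tau (hS : Rules D F) (hR : RootTable D len) (hM : S.HMul) (w : List (Fin D.rank))
    (c : Fin D.rank → Fˣ) :
    S.nW w * S.tau hS hR hM c * (S.nW w)⁻¹ =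
      S.tau hS hR hM (fun k => ∏ j, c j ^ wMat (cartanMat D) w.reverse j k) := by
  induction w with
  | nil =>
    rw [Sys.nW_nil, one_mul, inv_one, mul_one]
    congr 1
    funext k
    rw [List.reverse_nil, show wMat (cartanMat D) ([] : List (Fin D.rank)) = 1 from rfl,
      Finset.prod_eq_single k (fun j _ hj => by simp [Matrix.one_apply_ne hj]) (by simp)]
    simp
  | cons i w ih =>
    rw [Sys.nW_cons, show S.nI i * S.nW w * S.tau hS hR hM c * (S.nI i * S.nW w)⁻¹ =
      S.nI i * (S.nW w * S.tau hS hR hM c * (S.nW w)⁻¹) * (S.nI i)⁻¹ by group, ih, nI_conj_tau S hS hR hM]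
    congr 1
    funext k
    rw [List.reverse_cons, wMat_append, show wMat (cartanMat D) [i] = reflMat (cartanMat D) i by simp [wMat]]
    simp only [Matrix.mul_apply]
    exact (CentralExt.Embed.monomial_combine c (fun j l => wMat (cartanMat D) w.reverse j l)
      (fun l => reflMat (cartanMat D) i l k)).symm

end Cfsg.Agent.LieTori
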