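import Cfsg.Agent.Arith.LTE
import Mathlib.LinearAlgebra.FreeModule.Finite.CardQuotient
import Mathlib.LinearAlgebra.Matrix.Charpoly.Basic
import Mathlib.LinearAlgebra.Basis.VectorSpace
import Mathlib.LinearAlgebra.Eigenspace.Zero
import Mathlib.FieldTheory.Perfect

/-!
The kernel of `q - M` modulo `q ^ d - 1`, for an integer matrix `M` with characteristic polynomial `Φ_d`,
is cyclic of order `Φ_d(q)` (owner: helper35).
-/

set_option autoImplicit false
set_option linter.style.haveILetI false

namespace Cfsg.Agent.LieTori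

open Polynomial Matrix

variable {l : ℕ}

theorem sq_dvd_det_of_two_le_finrank_ker {s : ℕ} [Fact s.Prime] (N : Matrix (Fin l) (Fin l) ℤ)
    (h : 2 ≤ Module.finrank (ZMod s)
      (LinearMap.ker (Matrix.toLin' (N.map (Int.castRingHom (ZMod s)))))) :
    (s : ℤ) ^ 2 ∣ N.det := by
  classical
  have hs : s.Prime := Fact.out
  set K := LinearMap.ker (Matrix.toLin' (N.map (Int.castRingHom (ZMod s))))
  let bK := Module.finBasis (ZMod s) K
  let u : Fin 2 → Fin l → ZMod s := fun i => (bK ⟨i, by omega⟩ : Fin l → ZMod s)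
  have hu : LinearIndependent (ZMod s) u := by
    have := (bK.linearIndependent.map' K.subtype K.ker_subtype).comp
      (fun i : Fin 2 => (⟨i, by omega⟩ : Fin (Module.finrank (ZMod s) K)))
      (fun a b h => Fin.ext (congrArg Fin.val h :))
    exact this
  let ι := ↥(hu.linearIndepOn_id.extend (Set.subset_univ (Set.range u)))
  let b : Module.Basis ι (ZMod s) (Fin l → ZMod s) := Module.Basis.extend hu.linearIndepOn_id
  haveI : Finite ι := Module.Finite.finite_basis b
  haveI : Fintype ι := Fintype.ofFinite _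
  have hcard : Fintype.card ι = l := by
    rw [← Module.finrank_eq_card_basis b, Module.finrank_fin_fun]
  let k₀ : Fin 2 → ι := fun i => ⟨u i, hu.linearIndepOn_id.subset_extend _ ⟨i, rfl⟩⟩
  let e := (Fintype.equivFin _).trans (finCongr hcard)
  let b' := b.reindex e
  let U : Matrix (Fin l) (Fin l) ℤ := Matrix.of fun j k => ((b' k j).val : ℤ)
  have hUmap : U.map (Int.castRingHom (ZMod s)) = Matrix.of fun j k => b' k j := by
    ext j k; simp [U]
  have hUdet : ¬ (s : ℤ) ∣ U.det := by
    rw [← ZMod.intCast_zmod_eq_zero_iff_dvd]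
    show Int.castRingHom (ZMod s) U.det ≠ 0
    rw [RingHom.map_det, RingHom.mapMatrix_apply, hUmap]
    have h := (Pi.basisFun (ZMod s) (Fin l)).invertibleToMatrix b'
    have e2 : (Pi.basisFun (ZMod s) (Fin l)).toMatrix b' = Matrix.of fun j k => b' k j := by
      ext j k; simp [Module.Basis.toMatrix_apply]
    rw [e2] at h
    exact (Matrix.isUnit_det_of_invertible _).ne_zero
  set i := e (k₀ 0) with hi
  set j := e (k₀ 1) with hj
  have hij : i ≠ j := fun h => zero_ne_one (α := Fin 2) (hu.injective (congrArg Subtype.val (e.injective h) :))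
  have hcol : ∀ k, k = i ∨ k = j → ∀ a, (s : ℤ) ∣ (N * U) a k := by
    intro k hk a
    have hmem : b' k ∈ K := by
      rcases hk with rfl | rfl
      · simp only [b', hi, Module.Basis.reindex_apply, Equiv.symm_apply_apply]
        rw [show b (k₀ 0) = u 0 from congrFun (Module.Basis.coe_extend hu.linearIndepOn_id) (k₀ 0)]
        exact Subtype.coe_prop _
      · simp only [b', hj, Module.Basis.reindex_apply, Equiv.symm_apply_apply]
        rw [show b (k₀ 1) = u 1 from congrFun (Module.Basis.coe_extend hu.linearIndepOn_id) (k₀ 1)]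
        exact Subtype.coe_prop _
    rw [LinearMap.mem_ker, Matrix.toLin'_apply] at hmem
    rw [← ZMod.intCast_zmod_eq_zero_iff_dvd]
    simpa [Matrix.mul_apply, U, Matrix.mulVec, dotProduct] using congrFun hmem a
  let v : Fin l → ℤ := fun k => if k = i ∨ k = j then (s : ℤ) else 1
  let Y : Matrix (Fin l) (Fin l) ℤ :=
    Matrix.of fun a k => if k = i ∨ k = j then (N * U) a k / (s : ℤ) else (N * U) a k
  have hY : N * U = Y * Matrix.diagonal v := by
    ext a k
    rw [Matrix.mul_diagonal]
    simp only [Y, v, Matrix.of_apply]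
    split_ifs with hk
    · rw [Int.ediv_mul_cancel (hcol k hk a)]
    · rw [mul_one]
  have hv : ∏ k, v k = (s : ℤ) ^ 2 := by
    rw [← Finset.prod_subset (Finset.subset_univ {i, j}) fun k _ hk => by
      simp only [Finset.mem_insert, Finset.mem_singleton] at hk
      simp [v, hk], Finset.prod_pair hij]
    simp [v, sq]
  have h2 : (s : ℤ) ^ 2 ∣ N.det * U.det := ⟨Y.det, by
    rw [← Matrix.det_mul, hY, Matrix.det_mul, Matrix.det_diagonal, hv, mul_comm]⟩
  exact (((Nat.prime_iff_prime_int.1 hs).coprime_iff_not_dvd.2 hUdet).pow_left).dvd_of_dvd_mul_right h2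

/-- The kernel of `N` modulo `m`, multiplicatively. -/
def kerMod (N : Matrix (Fin l) (Fin l) ℤ) (m : ℕ) : Subgroup (Fin l → Multiplicative (ZMod m)) where
  carrier := {y | ∀ a, ∑ b, (N a b : ZMod m) * Multiplicative.toAdd (y b) = 0}
  one_mem' := fun a => by simp
  mul_mem' := fun {x y} hx hy a => by
    simp only [Pi.mul_apply, toAdd_mul, mul_add, Finset.sum_add_distrib, hx a, hy a, add_zero]
  inv_mem' := fun {x} hx a => by
    simp only [Pi.inv_apply, toAdd_inv, mul_neg, Finset.sum_neg_distrib, hx a, neg_zero]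

theorem card_kerMod {N S : Matrix (Fin l) (Fin l) ℤ} {m : ℕ} (hm : m ≠ 0)
    (h1 : N * S = (m : ℤ) • 1) (h2 : S * N = (m : ℤ) • 1) : Nat.card (kerMod N m) = N.det.natAbs := by
  haveI : NeZero m := ⟨hm⟩
  have hm' : (m : ℤ) ≠ 0 := by exact_mod_cast hm
  have hdet : N.det * S.det ≠ 0 := by
    rw [← Matrix.det_mul, h1, Matrix.det_smul, Matrix.det_one, mul_one]
    exact pow_ne_zero _ hm'
  have hSinj : ∀ {x y : Fin l → ℤ}, S *ᵥ x = S *ᵥ y → x = y := fun {x y} h => by
    have := congrArg (N *ᵥ ·) h
    simp only [Matrix.mulVec_mulVec, h1, Matrix.smul_mulVec, Matrix.one_mulVec] at this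
    exact smul_right_injective _ hm' this
  let Φ : (Fin l → ℤ) →+ Additive (kerMod N m) := AddMonoidHom.mk' (fun z => Additive.ofMul
      ⟨fun a => Multiplicative.ofAdd (((S *ᵥ z) a : ℤ) : ZMod m), fun a => by
        simp only [toAdd_ofAdd]
        have h := congrFun (Matrix.mulVec_mulVec z N S) a
        rw [h1, Matrix.smul_mulVec, Matrix.one_mulVec, Pi.smul_apply, smul_eq_mul] at h
        have h' := congrArg (fun x : ℤ => (x : ZMod m)) h
        simpa [Matrix.mulVec, dotProduct] using h'⟩)
    (fun x y => by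
      apply Additive.toMul.injective
      refine Subtype.ext (funext fun a => ?_)
      show Multiplicative.ofAdd (((S *ᵥ (x + y)) a : ℤ) : ZMod m) =
        Multiplicative.ofAdd (((S *ᵥ x) a : ℤ) : ZMod m) * Multiplicative.ofAdd (((S *ᵥ y) a : ℤ) : ZMod m)
      rw [← ofAdd_add, Matrix.mulVec_add, Pi.add_apply, Int.cast_add])
  have hsurj : Function.Surjective Φ := by
    intro y
    let z' : Fin l → ℤ := fun a => ((Multiplicative.toAdd ((Additive.toMul y).1 a)).val : ℤ)
    have hz : ∀ a, (m : ℤ) ∣ (N *ᵥ z') a := fun a => by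
      rw [← ZMod.intCast_zmod_eq_zero_iff_dvd]
      simpa [z', Matrix.mulVec, dotProduct] using (Additive.toMul y).2 a
    choose z hz using hz
    have e : S *ᵥ z = z' := by
      refine smul_right_injective _ hm' ?_
      show (m : ℤ) • (S *ᵥ z) = (m : ℤ) • z'
      rw [← Matrix.mulVec_smul, show (m : ℤ) • z = N *ᵥ z' from funext fun a => by
        rw [Pi.smul_apply, smul_eq_mul, hz], Matrix.mulVec_mulVec, h2, Matrix.smul_mulVec, Matrix.one_mulVec]
    refine ⟨z, Additive.toMul.injective (Subtype.ext (funext fun a => ?_))⟩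
    show Multiplicative.ofAdd (((S *ᵥ z) a : ℤ) : ZMod m) = _
    rw [e]
    simp [z']
  let f := Matrix.toLin' N
  have hfinj : Function.Injective f := fun x y h => by
    simp only [f, Matrix.toLin'_apply] at h
    have := congrArg (S *ᵥ ·) h
    simp only [Matrix.mulVec_mulVec, h2, Matrix.smul_mulVec, Matrix.one_mulVec] at this
    exact smul_right_injective _ hm' this
  have hker : Φ.ker = (LinearMap.range f).toAddSubgroup := by
    ext z
    rw [AddMonoidHom.mem_ker]
    constructor
    · intro h
      have h' : ∀ a, (m : ℤ) ∣ (S *ᵥ z) a := fun a => by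
        rw [← ZMod.intCast_zmod_eq_zero_iff_dvd]
        exact Multiplicative.ofAdd.injective
          (congrFun (congrArg Subtype.val (congrArg Additive.toMul h)) a)
      choose x hx using h'
      refine ⟨x, hSinj ?_⟩
      rw [Matrix.toLin'_apply, Matrix.mulVec_mulVec, h2, Matrix.smul_mulVec, Matrix.one_mulVec]
      exact funext fun a => by rw [Pi.smul_apply, smul_eq_mul, hx]
    · rintro ⟨x, rfl⟩
      refine Additive.toMul.injective (Subtype.ext (funext fun a => ?_))
      show Multiplicative.ofAdd (((S *ᵥ f x) a : ℤ) : ZMod m) = 1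
      rw [Matrix.toLin'_apply, Matrix.mulVec_mulVec, h2, Matrix.smul_mulVec, Matrix.one_mulVec,
        Pi.smul_apply, smul_eq_mul, Int.cast_mul, Int.cast_natCast, ZMod.natCast_self, zero_mul, ofAdd_zero]
  have hq := Nat.card_congr (QuotientAddGroup.quotientKerEquivOfSurjective Φ hsurj).toEquiv
  rw [hker] at hq
  rw [← LinearMap.det_toLin' N, Nat.card_congr (Additive.ofMul : kerMod N m ≃ Additive (kerMod N m)), ← hq]
  exact (Submodule.natAbs_det_equiv (LinearMap.range f) (LinearEquiv.ofInjective f hfinj)).symm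

theorem finrank_ker_le_one {d q : ℕ} (hd : 2 < d) (hq : 1 < q) {M : Matrix (Fin l) (Fin l) ℤ}
    (hM : M.charpoly = cyclotomic d ℤ) {s : ℕ} [Fact s.Prime] :
    Module.finrank (ZMod s) (LinearMap.ker (Matrix.toLin'
      (((q : ℤ) • (1 : Matrix (Fin l) (Fin l) ℤ) - M).map (Int.castRingHom (ZMod s))))) ≤ 1 := by
  by_contra hlt
  push Not at hlt
  have hdet : ((q : ℤ) • (1 : Matrix (Fin l) (Fin l) ℤ) - M).det = (cyclotomic d ℤ).eval (q : ℤ) := by
    rw [← hM, Matrix.eval_charpoly, Matrix.scalar_apply, Matrix.smul_one_eq_diagonal]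
  have h2 := sq_dvd_det_of_two_le_finrank_ker _ hlt
  by_cases hsd : s ∣ d
  · rw [hdet] at h2
    exact Arith.not_sq_dvd_cyclotomic hd hq hsd ((dvd_pow_self _ two_ne_zero).trans h2) h2
  · let Mp : Matrix (Fin l) (Fin l) (ZMod s) := M.map (Int.castRingHom (ZMod s))
    have hle : LinearMap.ker (Matrix.toLin'
        (((q : ℤ) • (1 : Matrix (Fin l) (Fin l) ℤ) - M).map (Int.castRingHom (ZMod s)))) ≤
        Module.End.eigenspace (Matrix.toLin' Mp) (q : ZMod s) := by
      intro x hx
      rw [Module.End.mem_eigenspace_iff, Matrix.toLin'_apply]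
      rw [LinearMap.mem_ker, Matrix.toLin'_apply] at hx
      funext a
      have h := congrFun hx a
      simp only [Matrix.mulVec, dotProduct, Matrix.map_apply, Matrix.sub_apply, map_sub, sub_mul,
        Finset.sum_sub_distrib, Pi.zero_apply, sub_eq_zero] at h
      rw [Pi.smul_apply, smul_eq_mul]
      refine h.symm.trans ?_
      rw [Finset.sum_eq_single a (fun b _ hb => by simp [Matrix.one_apply_ne hb.symm]) (by simp)]
      simp
    haveI : NeZero (d : ZMod s) := ⟨fun h => hsd ((ZMod.natCast_eq_zero_iff d s).1 h)⟩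
    have h3 : Module.finrank (ZMod s) (Module.End.eigenspace (Matrix.toLin' Mp) (q : ZMod s)) ≤ 1 := by
      refine (LinearMap.finrank_eigenspace_le _ _).trans ?_
      rw [Matrix.charpoly_toLin', Matrix.charpoly_map, hM, map_cyclotomic]
      exact rootMultiplicity_le_one_of_separable
        (PerfectField.separable_iff_squarefree.2 (squarefree_cyclotomic d (ZMod s))) _
    have := Submodule.finrank_mono hle
    omega

theorem isCyclic_of_prime_torsion {A : Type*} [CommGroup A] [Finite A]
    (h : ∀ s : ℕ, s.Prime → Nat.card (powMonoidHom s : A →* A).ker ≤ s) : IsCyclic A := by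
  classical
  haveI := Fintype.ofFinite A
  have key : ∀ n : ℕ, 0 < n → Nat.card (powMonoidHom n : A →* A).ker ≤ n := by
    intro n
    induction n using Nat.recOnMul with
    | zero => simp
    | one =>
      intro _
      rw [show (powMonoidHom 1 : A →* A).ker = ⊥ from by ext x; simp]
      simp
    | prime p hp => exact fun _ => h p hp
    | mul a b ha hb =>
      intro hab
      have ha0 : 0 < a := Nat.pos_of_mul_pos_right hab
      have hb0 : 0 < b := Nat.pos_of_mul_pos_left hab
      let K := (powMonoidHom (a * b) : A →* A).ker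
      let f : K →* (powMonoidHom b : A →* A).ker :=
        { toFun := fun x => ⟨(x : A) ^ a, by
            have hx := MonoidHom.mem_ker.1 x.2
            rw [powMonoidHom_apply, pow_mul] at hx
            exact MonoidHom.mem_ker.2 hx⟩
          map_one' := Subtype.ext (one_pow a)
          map_mul' := fun x y => Subtype.ext (mul_pow _ _ a) }
      have hk : Nat.card f.ker ≤ a := by
        refine le_trans ?_ (ha ha0)
        refine Nat.card_le_card_of_injective
          (fun x : f.ker => (⟨(x.1 : A), MonoidHom.mem_ker.2 (congrArg Subtype.val (MonoidHom.mem_ker.1 x.2))⟩ :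
            (powMonoidHom a : A →* A).ker)) fun x y e => ?_
        exact Subtype.ext (Subtype.ext (congrArg Subtype.val e :))
      rw [show Nat.card (powMonoidHom (a * b) : A →* A).ker = Nat.card f.range * Nat.card f.ker by
        rw [← Nat.card_congr (QuotientGroup.quotientKerEquivRange f).toEquiv,
          ← Subgroup.card_eq_card_quotient_mul_card_subgroup], mul_comm a b]
      exact Nat.mul_le_mul ((Nat.card_le_card_of_injective _ Subtype.val_injective).trans (hb hb0)) hk
  refine isCyclic_of_card_pow_eq_one_le fun n hn => le_of_eq_of_le ?_ (key n hn)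
  rw [← Fintype.card_subtype, ← Nat.card_eq_fintype_card]
  exact Nat.card_congr (Equiv.subtypeEquivRight fun x => by simp [MonoidHom.mem_ker])

theorem kerMod_facts {d q : ℕ} (hd : 2 < d) (hq : 1 < q) {M : Matrix (Fin l) (Fin l) ℤ}
    (hM : M.charpoly = cyclotomic d ℤ) :
    IsCyclic (kerMod ((q : ℤ) • 1 - M) (q ^ d - 1)) ∧
      Nat.card (kerMod ((q : ℤ) • 1 - M) (q ^ d - 1)) = ((cyclotomic d ℤ).eval (q : ℤ)).natAbs := by
  set m := q ^ d - 1
  have hm : m ≠ 0 := Nat.sub_ne_zero_of_lt (Nat.one_lt_pow (by omega) hq)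
  haveI : NeZero m := ⟨hm⟩
  have hMd : M ^ d = 1 := by
    obtain ⟨p, hp⟩ := cyclotomic.dvd_X_pow_sub_one d ℤ
    have h := congrArg (aeval M) hp
    rw [map_mul, ← hM, Matrix.aeval_self_charpoly, zero_mul, map_sub, map_pow, aeval_X, map_one,
      sub_eq_zero] at h
    exact h
  set S := ∑ i ∈ Finset.range d, ((q : ℤ) • (1 : Matrix (Fin l) (Fin l) ℤ)) ^ i * M ^ (d - 1 - i)
  have hcomm : Commute ((q : ℤ) • (1 : Matrix (Fin l) (Fin l) ℤ)) M := (Commute.one_left M).smul_left _
  have hpow : ((q : ℤ) • (1 : Matrix (Fin l) (Fin l) ℤ)) ^ d - M ^ d = (m : ℤ) • 1 := by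
    rw [hMd, _root_.smul_pow, one_pow, Nat.cast_sub (Nat.one_le_pow _ _ (by omega)), Nat.cast_pow, Nat.cast_one,
      sub_smul, one_smul]
  have h1 : ((q : ℤ) • 1 - M) * S = (m : ℤ) • 1 := (hcomm.mul_geom_sum₂ d).trans hpow
  have h2 : S * ((q : ℤ) • 1 - M) = (m : ℤ) • 1 := (hcomm.geom_sum₂_mul d).trans hpow
  refine ⟨isCyclic_of_prime_torsion fun s hs => ?_, ?_⟩
  · haveI := Fact.mk hs
    by_cases hsm : s ∣ m
    · obtain ⟨t, ht⟩ := hsm
      let V := LinearMap.ker (Matrix.toLin'
        (((q : ℤ) • (1 : Matrix (Fin l) (Fin l) ℤ) - M).map (Int.castRingHom (ZMod s))))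
      have hex : ∀ z : ZMod m, (s : ZMod m) * z = 0 → ∃ u : ℕ, z = (t * u : ℕ) := fun z hz => by
        have : m ∣ s * z.val := by
          rw [← ZMod.natCast_eq_zero_iff]
          push_cast
          rw [ZMod.natCast_zmod_val]
          exact hz
        replace this := (Nat.mul_dvd_mul_iff_left hs.pos).1 ((dvd_of_eq ht.symm).trans this)
        obtain ⟨u, hu⟩ := this
        exact ⟨u, by rw [← hu, ZMod.natCast_zmod_val]⟩
      choose u hu using hex
      have hs0 : ∀ (y : (powMonoidHom s : kerMod ((q : ℤ) • 1 - M) m →* _).ker) b,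
          (s : ZMod m) * Multiplicative.toAdd (y.1.1 b) = 0 := fun y b => by
        have h : (y.1.1 b) ^ s = 1 := congrFun (congrArg Subtype.val (MonoidHom.mem_ker.1 y.2)) b
        have h' := congrArg Multiplicative.toAdd h
        rwa [toAdd_pow, toAdd_one, nsmul_eq_mul] at h'
      have hmem : ∀ y : (powMonoidHom s : kerMod ((q : ℤ) • 1 - M) m →* _).ker,
          (fun b => (u _ (hs0 y b) : ZMod s)) ∈ V := fun y => by
        rw [LinearMap.mem_ker, Matrix.toLin'_apply]
        funext a
        have h := y.1.2 a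
        rw [Finset.sum_congr rfl fun b _ => by rw [hu _ (hs0 y b)]] at h
        have h2 : (m : ℤ) ∣ (t : ℤ) * ∑ b, ((q : ℤ) • (1 : Matrix (Fin l) (Fin l) ℤ) - M) a b * u _ (hs0 y b) := by
          rw [← ZMod.intCast_zmod_eq_zero_iff_dvd, ← h, Int.cast_mul, Int.cast_sum, Finset.mul_sum]
          refine Finset.sum_congr rfl fun b _ => ?_
          push_cast
          ring
        have hm2 : (m : ℤ) = (t : ℤ) * s := by rw [← Nat.cast_mul]; exact congrArg Nat.cast (ht.trans (mul_comm s t))
        replace h2 := (mul_dvd_mul_iff_left (show (t : ℤ) ≠ 0 by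
          intro h0; apply hm; rw [ht, Int.natCast_eq_zero.1 h0, mul_zero])).1 ((dvd_of_eq hm2.symm).trans h2)
        rw [← ZMod.intCast_zmod_eq_zero_iff_dvd] at h2
        simp only [Matrix.mulVec, dotProduct, Matrix.map_apply, Pi.zero_apply, eq_intCast]
        rw [← h2, Int.cast_sum]
        simp
      refine (Nat.card_le_card_of_injective (fun y => (⟨_, hmem y⟩ : V)) fun y y' e => ?_).trans ?_
      · refine Subtype.ext (Subtype.ext (funext fun b => Multiplicative.toAdd.injective ?_))
        have e' : (u _ (hs0 y b) : ZMod s) = u _ (hs0 y' b) := congrFun (congrArg Subtype.val e) b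
        rw [hu _ (hs0 y b), hu _ (hs0 y' b), ZMod.natCast_eq_natCast_iff]
        exact ((Nat.ModEq.mul_left' t ((ZMod.natCast_eq_natCast_iff _ _ _).1 e')).of_dvd
          (dvd_of_eq (ht.trans (mul_comm s t))))
      · rw [Module.natCard_eq_pow_finrank (K := ZMod s), Nat.card_zmod]
        exact (Nat.pow_le_pow_right hs.pos (finrank_ker_le_one hd hq hM)).trans_eq (pow_one s)
    · refine le_trans (le_of_eq ?_) hs.one_le
      rw [Subgroup.card_eq_one, eq_bot_iff]
      intro y hy
      rw [Subgroup.mem_bot]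
      refine Subtype.ext (funext fun b => ?_)
      have h : (y.1 b) ^ s = 1 := congrFun (congrArg Subtype.val (MonoidHom.mem_ker.1 hy)) b
      have h' := congrArg Multiplicative.toAdd h
      rw [toAdd_pow, toAdd_one, nsmul_eq_mul] at h'
      have hu : IsUnit (s : ZMod m) := (ZMod.isUnit_iff_coprime s m).2 ((hs.coprime_iff_not_dvd).2 hsm)
      exact Multiplicative.toAdd.injective (hu.mul_right_eq_zero.1 h')
  · rw [card_kerMod hm h1 h2, ← hM, Matrix.eval_charpoly, Matrix.scalar_apply, Matrix.smul_one_eq_diagonal]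

end Cfsg.Agent.LieTori
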