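import Cfsg.Agent.LieTori.RootMatrix
import Cfsg.Agent.LieTori.CycBound

/-!
An eigenvector modulo a prime, whose eigenvalue has order `d` with `φ(d)` the rank, of a Weyl group element is
regular: no root annihilates it and only the identity fixes it (owner: helper35).
-/

set_option autoImplicit false
set_option linter.style.haveILetI false

namespace Cfsg.Agent.LieTori

open Cfsg.Lie Cfsg.Agent.ChevGrp Matrix Polynomial
open Cfsg.Agent.CoxTower (elemOfWord wordAct)

variable {l r : ℕ}

/-- The pairing of a column with a vector modulo `r`. -/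
def pairMod (v : Fin l → ZMod r) (c : Fin l → ℤ) : ZMod r := ∑ j, (c j : ZMod r) * v j

theorem pairMod_add (v : Fin l → ZMod r) (a b : Fin l → ℤ) :
    pairMod v (a + b) = pairMod v a + pairMod v b := by
  simp [pairMod, add_mul, Finset.sum_add_distrib]

theorem pairMod_sub (v : Fin l → ZMod r) (a b : Fin l → ℤ) :
    pairMod v (a - b) = pairMod v a - pairMod v b := by
  simp [pairMod, sub_mul, Finset.sum_sub_distrib]

theorem pairMod_smul (v : Fin l → ZMod r) (n : ℤ) (a : Fin l → ℤ) :
    pairMod v (n • a) = (n : ZMod r) * pairMod v a := by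
  simp [pairMod, Finset.mul_sum, mul_assoc]

theorem pairMod_sum {ι : Type*} (s : Finset ι) (v : Fin l → ZMod r) (f : ι → Fin l → ℤ) :
    pairMod v (∑ i ∈ s, f i) = ∑ i ∈ s, pairMod v (f i) := by
  simp only [pairMod, Finset.sum_apply, Int.cast_sum, Finset.sum_mul]
  exact Finset.sum_comm

theorem pairMod_single (v : Fin l → ZMod r) (k : Fin l) : pairMod v (Pi.single k 1) = v k := by
  rw [pairMod, Finset.sum_eq_single k (fun j _ hj => by simp [Pi.single_eq_of_ne hj]) (by simp)]
  simp

theorem mem_eigMod_iff_pairMod [Fact r.Prime] (M : Matrix (Fin l) (Fin l) ℤ) (ζ : ZMod r) (v : Fin l → ZMod r) :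
    v ∈ eigMod M ζ ↔ ∀ c, pairMod v (M *ᵥ c) = ζ * pairMod v c := by
  rw [mem_eigMod]
  refine ⟨fun h c => ?_, fun h k => ?_⟩
  · simp only [pairMod, Matrix.mulVec, dotProduct, Int.cast_sum, Int.cast_mul, Finset.sum_mul, Finset.mul_sum]
    rw [Finset.sum_comm]
    refine Finset.sum_congr rfl fun k _ => ?_
    rw [mul_left_comm ζ, ← h k, Finset.mul_sum]
    exact Finset.sum_congr rfl fun j _ => by ring
  · have := h (Pi.single k 1)
    rwa [pairMod_single, pairMod, Matrix.mulVec_single_one] at this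

theorem charpoly_eq_cyclotomic [Fact r.Prime] {N d : ℕ} {M : Matrix (Fin l) (Fin l) ℤ} (hM : M ^ N = 1)
    (hrN : ¬ r ∣ N) (hd : 0 < d) (hφ : d.totient = l) {ζ : ZMod r} (hζ : orderOf ζ = d)
    {v : Fin l → ZMod r} (hv : v ∈ eigMod M ζ) (hv0 : v ≠ 0) : M.charpoly = cyclotomic d ℤ := by
  refine eq_of_monic_of_dvd_of_natDegree_le (cyclotomic.monic d ℤ) M.charpoly_monic
    ((dvd_pow_self _ ?_).trans (cyclotomic_pow_dvd_charpoly hM hrN hd hζ)) ?_
  · intro h
    exact hv0 ((Submodule.mem_bot _).1 (Submodule.finrank_eq_zero.1 h ▸ hv))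
  · rw [natDegree_cyclotomic, hφ, M.charpoly_natDegree_eq_dim, Fintype.card_fin]

theorem wMat_append (A : Matrix (Fin l) (Fin l) ℤ) (u w : List (Fin l)) :
    wMat A (u ++ w) = wMat A u * wMat A w := by simp [wMat]

theorem reflMat_mul_self (A : Matrix (Fin l) (Fin l) ℤ) {i : Fin l} (h : A i i = 2) :
    reflMat A i * reflMat A i = 1 := by
  have e : Matrix.single i i (1 : ℤ) * A * Matrix.single i i 1 = (2 : ℤ) • Matrix.single i i 1 := by
    rw [Matrix.single_mul_mul_single, h]
    simp [Matrix.smul_single]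
  calc reflMat A i * reflMat A i
      = 1 - A * Matrix.single i i 1 - A * Matrix.single i i 1 +
        A * (Matrix.single i i (1 : ℤ) * A * Matrix.single i i 1) := by rw [reflMat]; noncomm_ring
    _ = 1 := by rw [e, mul_smul_comm, two_smul]; abel

theorem det_reflMat (A : Matrix (Fin l) (Fin l) ℤ) {i : Fin l} (h : A i i = 2) : (reflMat A i).det = -1 := by
  rw [reflMat, show A * Matrix.single i i 1 =
      Matrix.replicateCol (Fin 1) (fun j => A j i) * Matrix.replicateRow (Fin 1) (Pi.single i (1 : ℤ)) by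
    ext j k
    rw [Matrix.mul_apply, Finset.sum_eq_single i (fun x _ hx => by simp [Matrix.single_apply_of_row_ne hx.symm])
      (by simp)]
    by_cases hk : k = i
    · subst hk; simp [Matrix.mul_apply]
    · simp [Matrix.mul_apply, hk, Ne.symm hk], Matrix.det_one_sub_mul_comm, Matrix.det_fin_one]
  simp [Matrix.mul_apply, Pi.single_apply, h]

theorem wMat_mul_reverse (A : Matrix (Fin l) (Fin l) ℤ) (h : ∀ i, A i i = 2) (w : List (Fin l)) :
    wMat A w * wMat A w.reverse = 1 := by
  induction w with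
  | nil => simp [wMat]
  | cons i w ih =>
    rw [List.reverse_cons, wMat_append, wMat_cons, mul_assoc, ← mul_assoc (wMat A w), ih, one_mul, wMat_cons,
      show wMat A ([] : List (Fin l)) = 1 from rfl, mul_one, reflMat_mul_self A (h i)]

/-- A matrix commuting with `M`, whose characteristic polynomial is irreducible, is zero or injective. -/
theorem eq_zero_of_commute {d : ℕ} (hd : 0 < d) {M E : Matrix (Fin l) (Fin l) ℤ}
    (hM : M.charpoly = cyclotomic d ℤ) (hcomm : M * E = E * M) (hdet : E.det = 0) : E = 0 := by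
  obtain ⟨x, hx0, hx⟩ := Matrix.exists_mulVec_eq_zero_iff.2 hdet
  let X' : Matrix (Fin l) (Fin l) ℤ := Matrix.of fun i k => ((M ^ (k : ℕ)) *ᵥ x) i
  have hX : X'.det ≠ 0 := by
    intro h0
    obtain ⟨c, hc0, hc⟩ := Matrix.exists_mulVec_eq_zero_iff.2 h0
    let p : ℚ[X] := ∑ k : Fin l, Polynomial.C (c k : ℚ) * X ^ (k : ℕ)
    have hp0 : p ≠ 0 := by
      obtain ⟨k, hk⟩ := Function.ne_iff.1 hc0
      intro hp
      have := congrArg (fun f : ℚ[X] => f.coeff k) hp
      simp [p, Fin.val_inj] at this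
      exact hk this
    have hl : (cyclotomic d ℚ).natDegree = l := by
      rw [natDegree_cyclotomic]
      have := congrArg natDegree hM
      rwa [natDegree_cyclotomic, M.charpoly_natDegree_eq_dim, Fintype.card_fin, eq_comm] at this
    have hdeg : p.degree < (cyclotomic d ℚ).degree := by
      rw [degree_eq_natDegree (cyclotomic.monic d ℚ).ne_zero, hl]
      exact (degree_sum_fin_lt _)
    have hcop : IsCoprime (cyclotomic d ℚ) p :=
      ((cyclotomic.irreducible_rat hd).coprime_iff_not_dvd).2 fun h =>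
        absurd (degree_le_of_dvd h hp0) (not_le.2 hdeg)
    obtain ⟨a, b, hab⟩ := hcop
    let φ := Int.castRingHom ℚ
    let Mq : Matrix (Fin l) (Fin l) ℚ := M.map φ
    have hchar : aeval Mq (cyclotomic d ℚ) = 0 := by
      rw [← map_cyclotomic d φ, ← hM, ← Matrix.charpoly_map]
      exact Matrix.aeval_self_charpoly _
    have hpx : aeval Mq p *ᵥ (fun j => (x j : ℚ)) = 0 := by
      funext i
      have h := congrArg (fun z : ℤ => (z : ℚ)) (congrFun hc i)
      have hpow : ∀ (k : ℕ) (j : Fin l), (((M ^ k) i j : ℤ) : ℚ) = (Mq ^ k) i j := fun k j => by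
        show (φ.mapMatrix (M ^ k)) i j = _
        rw [map_pow]; rfl
      simp only [X', Matrix.mulVec, dotProduct, Matrix.of_apply, Int.cast_sum, Int.cast_mul, Pi.zero_apply,
        Int.cast_zero, hpow] at h
      simp only [p, map_sum, map_mul, aeval_C, map_pow, aeval_X, Algebra.algebraMap_eq_smul_one,
        smul_mul_assoc, one_mul, Matrix.mulVec, dotProduct, Matrix.sum_apply, Matrix.smul_apply, smul_eq_mul,
        Finset.sum_mul, Pi.zero_apply]
      rw [Finset.sum_comm]
      refine (Finset.sum_congr rfl fun k _ => ?_).trans h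
      rw [Finset.sum_mul]
      exact Finset.sum_congr rfl fun j _ => by ring
    have h1 := congrArg (fun f : ℚ[X] => aeval Mq f *ᵥ (fun j => (x j : ℚ))) hab
    simp only [map_add, map_mul, hchar, mul_zero, zero_add, map_one, Matrix.one_mulVec] at h1
    rw [← Matrix.mulVec_mulVec, hpx, Matrix.mulVec_zero] at h1
    exact hx0 (funext fun j => Int.cast_injective (α := ℚ) (by simpa using (congrFun h1 j).symm))
  have hEX : E * X' = 0 := by
    ext i k
    have h : E *ᵥ ((M ^ (k : ℕ)) *ᵥ x) = 0 := by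
      rw [Matrix.mulVec_mulVec, ((show Commute M E from hcomm).pow_left (k : ℕ)).eq.symm,
        ← Matrix.mulVec_mulVec, hx, Matrix.mulVec_zero]
    simpa [X', Matrix.mul_apply, Matrix.mulVec, dotProduct] using congrFun h i
  have h := congrArg (· * X'.adjugate) hEX
  simp only [mul_assoc, Matrix.mul_adjugate, mul_smul_comm, mul_one, zero_mul] at h
  exact (smul_eq_zero.1 h).resolve_left hX

variable {D : ChevalleyDatum} {len : ℕ → ℕ}

theorem cartanMat_self (hR : RootTable D len) (i : Fin D.rank) : cartanMat D i i = 2 := hR.cartan_self i i.2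

/-- No root annihilates the eigenvector. -/
theorem pairMod_col_ne_zero (hR : RootTable D len) [Fact r.Prime] {N d : ℕ} (hW : WeylOrder D N)
    (hdet : (cartanMat D).det ≠ 0) (hrN : ¬ r ∣ N) (hd : 0 < d) (hφ : d.totient = D.rank) {ζ : ZMod r}
    (hζ : orderOf ζ = d) {w : List (Fin D.rank)} {v : Fin D.rank → ZMod r}
    (hv : v ∈ eigMod (wMat (cartanMat D) w) ζ) (hv0 : v ≠ 0) {s : ℕ} (hs : s < D.nroots) :
    pairMod v (col D s) ≠ 0 := by
  intro h0
  obtain ⟨u, k, rfl⟩ := hR.exists_act_simple hs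
  set A := cartanMat D
  set W := wMat A u
  set R := W * (reflMat A k * wMat A u.reverse) with hR'
  have hRc : ∀ c, pairMod v (R *ᵥ c) = pairMod v c := by
    intro c
    set z := wMat A u.reverse *ᵥ c
    have e1 : R *ᵥ c = W *ᵥ z - z k • col D (act D u (D.simple k)) := by
      rw [hR', ← Matrix.mulVec_mulVec, ← Matrix.mulVec_mulVec, reflMat, Matrix.sub_mulVec, Matrix.one_mulVec,
        Matrix.mulVec_sub, col_act hR u (hR.simple_lt k k.2), ← Matrix.mulVec_smul]
      congr 2
      funext j
      simp [A, col, cartanMat, Matrix.mulVec, dotProduct, Matrix.mul_apply, Matrix.single_apply, ite_and,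
        mul_comm, z]
    have e2 : W *ᵥ z = c := by
      rw [Matrix.mulVec_mulVec, wMat_mul_reverse A (cartanMat_self hR), Matrix.one_mulVec]
    rw [e1, e2, pairMod_sub, pairMod_smul, h0, mul_zero, sub_zero]
  let u' := u ++ k :: u.reverse
  have hu' : wMat A u' = R := by rw [hR', wMat_append, wMat_cons]
  have hv' : v ∈ eigMod (wMat A (u' ++ w)) ζ := by
    rw [mem_eigMod_iff_pairMod]
    intro c
    rw [wMat_append, hu', ← Matrix.mulVec_mulVec, hRc, (mem_eigMod_iff_pairMod _ _ _).1 hv]
  have h1 := charpoly_eq_cyclotomic (wMat_pow_eq_one hR hW hdet w) hrN hd hφ hζ hv hv0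
  have h2 := charpoly_eq_cyclotomic (wMat_pow_eq_one hR hW hdet (u' ++ w)) hrN hd hφ hζ hv' hv0
  have h3 : (wMat A (u' ++ w)).det = (wMat A w).det := by
    rw [Matrix.det_eq_sign_charpoly_coeff, Matrix.det_eq_sign_charpoly_coeff, h1, h2]
  have h4 : R.det = -1 := by
    have h := congrArg Matrix.det (wMat_mul_reverse A (cartanMat_self hR) u)
    rw [Matrix.det_mul, Matrix.det_one] at h
    rw [hR', Matrix.det_mul, Matrix.det_mul, det_reflMat A (cartanMat_self hR k)]
    linear_combination -h
  rw [wMat_append, Matrix.det_mul, hu', h4] at h3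
  have h5 : (wMat A w).det = 0 := by linarith
  have h6 := congrArg Matrix.det (wMat_mul_reverse A (cartanMat_self hR) w)
  rw [Matrix.det_mul, h5, zero_mul, Matrix.det_one] at h6
  exact zero_ne_one h6

/-- The representation of the Weyl group on columns. -/
theorem exists_rep (hR : RootTable D len) (hdet : (cartanMat D).det ≠ 0) {M : CoxeterMatrix (Fin D.rank)}
    (hC : ∀ w : List ℕ, (∀ a ∈ w, a < D.rank) →
      (elemOfWord M w = 1 ↔ ∀ r < D.nroots, wordAct D.reflectRoot w r = r)) :
    ∃ ρ : M.Group →* Matrix (Fin D.rank) (Fin D.rank) ℤ,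
      ∀ w, ρ (Chev.cElem M w) = wMat (cartanMat D) w := by
  have hwd : ∀ u w, Chev.cElem M u = Chev.cElem M w → wMat (cartanMat D) u = wMat (cartanMat D) w := by
    intro u w e
    have h : (wMat (cartanMat D) u - wMat (cartanMat D) w) * cartanMat D = 0 := by
      ext j k
      have hk := hR.simple_lt k k.2
      have h1 := congrFun (col_act hR u hk) j
      rw [(Chev.cElem_eq_iff hC hR u w).1 e _ hk, col_act hR w hk] at h1
      simpa [sub_mul, sub_eq_zero, Matrix.mul_apply, Matrix.mulVec, dotProduct, col, cartanMat] using h1.symm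
    have h2 := congrArg (· * (cartanMat D).adjugate) h
    simp only [mul_assoc, zero_mul, Matrix.mul_adjugate, mul_smul_comm, mul_one] at h2
    exact sub_eq_zero.1 ((smul_eq_zero.1 h2).resolve_left hdet)
  choose f hf using M.toCoxeterSystem.wordProd_surjective
  have hf' : ∀ w, wMat (cartanMat D) (f (Chev.cElem M w)) = wMat (cartanMat D) w := fun w => hwd _ _ (hf _)
  refine ⟨{ toFun := fun g => wMat (cartanMat D) (f g), map_one' := ?_, map_mul' := fun a b => ?_ }, hf'⟩
  · rw [show (1 : M.Group) = Chev.cElem M [] from (CoxeterSystem.wordProd_nil _).symm, hf']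
    rfl
  · rw [← wMat_append]
    exact hwd _ _ (by rw [Chev.cElem, Chev.cElem, CoxeterSystem.wordProd_append, hf, hf, hf])

/-- Only the identity fixes the eigenvector. -/
theorem wMat_eq_one_of_fix (hR : RootTable D len) [Fact r.Prime] {N d : ℕ} (hW : WeylOrder D N)
    (hdet : (cartanMat D).det ≠ 0) (hrN : ¬ r ∣ N) (hd : 0 < d) (hφ : d.totient = D.rank) {ζ : ZMod r}
    (hζ : orderOf ζ = d) {w : List (Fin D.rank)} {v : Fin D.rank → ZMod r}
    (hv : v ∈ eigMod (wMat (cartanMat D) w) ζ) (hv0 : v ≠ 0) {w' : List (Fin D.rank)}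
    (hfix : v ∈ eigMod (wMat (cartanMat D) w') 1) : wMat (cartanMat D) w' = 1 := by
  classical
  have hchar := charpoly_eq_cyclotomic (wMat_pow_eq_one hR hW hdet w) hrN hd hφ hζ hv hv0
  obtain ⟨Mc, hcard, hC⟩ := hW
  haveI : Finite Mc.Group := Nat.finite_of_card_ne_zero fun h => hrN (by rw [← hcard, h]; exact dvd_zero r)
  obtain ⟨ρ, hρ⟩ := exists_rep hR hdet hC
  let St : Subgroup Mc.Group :=
    { carrier := {g | ∀ c, pairMod v (ρ g *ᵥ c) = pairMod v c}
      one_mem' := fun c => by simp
      mul_mem' := fun {a b} ha hb c => by rw [map_mul, ← Matrix.mulVec_mulVec, ha, hb]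
      inv_mem' := fun {a} ha c => by
        conv_rhs => rw [show c = ρ a *ᵥ (ρ a⁻¹ *ᵥ c) by
          rw [Matrix.mulVec_mulVec, ← map_mul, mul_inv_cancel, map_one, Matrix.one_mulVec]]
        rw [ha] }
  haveI : Fintype St := Fintype.ofFinite _
  set u := Chev.cElem Mc w
  have hu : ∀ c, pairMod v (ρ u *ᵥ c) = ζ * pairMod v c := by
    intro c; rw [hρ]; exact (mem_eigMod_iff_pairMod _ _ _).1 hv c
  have hnorm : ∀ g : Mc.Group, g ∈ St → u * g * u⁻¹ ∈ St := fun g hg c => by
    have h2 : c = ρ u *ᵥ (ρ u⁻¹ *ᵥ c) := by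
      rw [Matrix.mulVec_mulVec, ← map_mul, mul_inv_cancel, map_one, Matrix.one_mulVec]
    rw [map_mul, map_mul, ← Matrix.mulVec_mulVec, ← Matrix.mulVec_mulVec, hu, hg, ← hu, ← h2]
  let E := ∑ g : St, ρ g
  let conjMap : St → St := fun g => ⟨u * g * u⁻¹, hnorm g g.2⟩
  have hbij : Function.Bijective conjMap := Finite.injective_iff_bijective.1 fun a b h =>
    Subtype.ext (by simpa [conjMap] using congrArg Subtype.val h)
  have hcomm : ρ u * E = E * ρ u := by
    calc ρ u * E = ∑ g : St, ρ (conjMap g) * ρ u := by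
          rw [Finset.mul_sum]
          exact Finset.sum_congr rfl fun g _ => by rw [← map_mul, ← map_mul]; simp [conjMap]
      _ = E * ρ u := by
          rw [Finset.sum_mul]
          exact hbij.sum_comp (fun g : St => ρ g * ρ u)
  have hEdet : E.det ≠ 0 := fun h => by
    have hE := eq_zero_of_commute hd hchar (by rw [← hρ]; exact hcomm) h
    obtain ⟨k, hk⟩ := Function.ne_iff.1 hv0
    have h2 : pairMod v (E *ᵥ Pi.single k 1) = (Fintype.card St : ZMod r) * v k := by
      rw [show E *ᵥ Pi.single k 1 = ∑ g : St, ρ g *ᵥ Pi.single k 1 from Matrix.sum_mulVec _ _ _, pairMod_sum,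
        Finset.sum_congr rfl fun g _ => (g.2 (Pi.single k 1)).trans (pairMod_single v k), Finset.sum_const,
        Finset.card_univ, nsmul_eq_mul]
    rw [hE, Matrix.zero_mulVec] at h2
    have h3 : pairMod v 0 = (0 : ZMod r) := by simp [pairMod]
    rw [h3] at h2
    have h4 : (Fintype.card St : ZMod r) ≠ 0 := by
      rw [Ne, ZMod.natCast_eq_zero_iff, ← Nat.card_eq_fintype_card]
      exact fun h => hrN (hcard ▸ h.trans St.card_subgroup_dvd_card)
    exact hk ((mul_eq_zero.1 h2.symm).resolve_left h4)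
  have hmem : Chev.cElem Mc w' ∈ St := fun c => by
    rw [hρ, (mem_eigMod_iff_pairMod _ _ _).1 hfix, one_mul]
  have hfixE : wMat (cartanMat D) w' * E = E := by
    rw [← hρ, Finset.mul_sum]
    simp only [← map_mul]
    exact (Equiv.mulLeft (⟨_, hmem⟩ : St)).bijective.sum_comp (fun g : St => ρ g)
  have h := congrArg (· * E.adjugate) (sub_eq_zero.2 hfixE)
  rw [← sub_one_mul] at h
  simp only [mul_assoc, Matrix.mul_adjugate, mul_smul_comm, mul_one, zero_mul] at h
  exact sub_eq_zero.1 ((smul_eq_zero.1 h).resolve_left hEdet)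

end Cfsg.Agent.LieTori
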