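import Cfsg.Agent.LieTori.RegularEigen
import Cfsg.Agent.LieTori.KernelCyclic
import Cfsg.Agent.LieTori.SylowMain
import Cfsg.Agent.Known.ChevSubfield
import Cfsg.Agent.ChevGrp.Simple

/-!
A regular element of prime order and its centraliser, a cyclic maximal torus of order `Φ_d(q)` with `φ(d)` the
rank, in the Chevalley groups with unimodular Cartan matrix (owner: helper35).
-/

set_option autoImplicit false
set_option linter.style.haveILetI false

namespace Cfsg.Agent.LieTori

open Cfsg.Lie Cfsg.Agent.ChevGrp Matrix Polynomial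
open scoped MatrixGroups

section

variable {D : ChevalleyDatum} {F : Type*} [Field F] {G : Type*} [Group G] (S : Sys D F G) {len : ℕ → ℕ}

theorem tau_conj_x (hS : Rules D F) (hR : RootTable D len) (hM : S.HMul) (c : Fin D.rank → Fˣ) :
    ∀ s < D.nroots, ∀ t : F, S.tau hS hR hM c * S.x s t * (S.tau hS hR hM c)⁻¹ =
      S.x s (((∏ j : Fin D.rank, c j ^ D.cartan j s : Fˣ) : F) * t) := by
  induction c using Pi.mulSingle_induction with
  | one => intro s hs t; simp
  | mul f g hf hg =>
    intro s hs t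
    calc S.tau hS hR hM (f * g) * S.x s t * (S.tau hS hR hM (f * g))⁻¹
        = S.tau hS hR hM f * (S.tau hS hR hM g * S.x s t * (S.tau hS hR hM g)⁻¹) *
            (S.tau hS hR hM f)⁻¹ := by rw [map_mul]; group
      _ = _ := by
        rw [hg s hs, hf s hs]
        simp [mul_zpow, Finset.prod_mul_distrib, mul_assoc]
  | mulSingle i u =>
    intro s hs t
    have e : S.tau hS hR hM (Pi.mulSingle i u) = S.hEl (D.simple i) (u : F) := by
      rw [Sys.tau, MonoidHom.noncommPiCoprod_mulSingle]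
      rfl
    rw [e, S.conjP_hI hS hR i u.ne_zero s hs,
      Finset.prod_eq_single i (fun j _ hj => by simp [Pi.mulSingle_eq_of_ne hj]) (by simp),
      Pi.mulSingle_eq_same, Units.val_zpow_eq_zpow_val]

theorem P_conj {g : G} {L : List ℕ} {t t' : ℕ → F}
    (h : ∀ a ∈ L, g * S.x a (t a) * g⁻¹ = S.x a (t' a)) : g * S.P L t * g⁻¹ = S.P L t' := by
  induction L with
  | nil => simp [Sys.P_nil]
  | cons a L ih =>
    rw [Sys.P_cons, Sys.P_cons, ← ih (fun b hb => h b (List.mem_cons_of_mem _ hb)), ← h a List.mem_cons_self]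
    group

theorem eq_one_of_commute_tau (hS : Rules D F) (hR : RootTable D len) (hM : S.HMul) {c : Fin D.rank → Fˣ}
    (hc : ∀ s < D.nroots, ∏ j : Fin D.rank, c j ^ D.cartan j s ≠ 1) {u : G} (hu : u ∈ S.Ubar)
    (hcomm : S.tau hS hR hM c * u * (S.tau hS hR hM c)⁻¹ = u) : u = 1 := by
  obtain ⟨L, hL⟩ := hR.posSet_closed.exists_enum
  obtain ⟨t, rfl⟩ := S.exists_coef hR hR.posSet_closed hL hu
  have hlt : ∀ a ∈ L, a < D.nroots := fun a ha => ((hL.2 a).1 ha).1
  rw [P_conj S (t' := fun a => ((∏ j : Fin D.rank, c j ^ D.cartan j a : Fˣ) : F) * t a)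
    (fun a ha => tau_conj_x S hS hR hM c a (hlt a ha) (t a))] at hcomm
  refine S.P_zero hlt fun a ha => ?_
  have h1 := S.coef_unique hR hR.posSet_closed hL (congrArg S.θ hcomm) a ((hL.2 a).1 ha)
  by_contra h0
  exact hc a (hlt a ha) (Units.ext (mul_right_cancel₀ h0 (h1.trans (one_mul _).symm)))

theorem col_inj (hR : RootTable D len) (hdet : (cartanMat D).det ≠ 0) {a b : ℕ} (ha : a < D.nroots)
    (hb : b < D.nroots) (h : col D a = col D b) : a = b := by
  refine hR.vec_inj a ha b hb ?_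
  have hz : cartanMat D *ᵥ (fun i : Fin D.rank =>
      (vec D len a i - vec D len b i) * ((6 / len (D.simple i) : ℕ) : ℤ)) = 0 := by
    funext j
    have h1 := hR.cartan_vec j j.2 a ha
    have h2 := hR.cartan_vec j j.2 b hb
    have hj : D.cartan j a = D.cartan j b := congrFun h j
    simp only [Matrix.mulVec, dotProduct, cartanMat, Matrix.of_apply, Pi.zero_apply]
    rw [hj, h2] at h1
    rw [← sub_eq_zero.2 h1.symm, ← Finset.sum_sub_distrib]
    exact Finset.sum_congr rfl fun i _ => by ring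
  funext i
  have h3 := congrFun (Matrix.eq_zero_of_mulVec_eq_zero hdet hz) i
  simp only [Pi.zero_apply, mul_eq_zero, sub_eq_zero] at h3
  refine h3.resolve_right ?_
  have hd := hR.len_dvd _ (hR.simple_lt i i.2)
  have hpos : 0 < len (D.simple i) := Nat.pos_of_dvd_of_pos hd (by norm_num)
  have := Nat.div_pos (Nat.le_of_dvd (by norm_num) hd) hpos
  omega

theorem eigen_one_of_conj (hS : Rules D F) (hR : RootTable D len) (hM : S.HMul) {r : ℕ} [Fact r.Prime]
    (hdet : ((cartanMat D).det : ZMod r) ≠ 0) (g : Multiplicative (ZMod r) →* Fˣ) (hg : Function.Injective g)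
    {w : List (Fin D.rank)} {v : Fin D.rank → ZMod r}
    (e : S.nW w * S.tau hS hR hM (fun j => g (Multiplicative.ofAdd (v j))) * (S.nW w)⁻¹ =
      S.tau hS hR hM (fun j => g (Multiplicative.ofAdd (v j)))) :
    v ∈ eigMod (wMat (cartanMat D) w) 1 := by
  have := eigen_of_conj_nW S hS hR hM hdet g hg (q := 1) (by simp) (by simpa using e)
  simpa using this

/-- The centraliser of a regular element of the split torus is the torus. -/
theorem mem_Hbar_of_commute (hS : Rules D F) (hR : RootTable D len) (hM : S.HMul) (hdet : (cartanMat D).det ≠ 0)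
    {c : Fin D.rank → Fˣ} (hc : ∀ s < D.nroots, ∏ j : Fin D.rank, c j ^ D.cartan j s ≠ 1)
    (hfix : ∀ w : List (Fin D.rank), S.nW w * S.tau hS hR hM c * (S.nW w)⁻¹ = S.tau hS hR hM c →
      wMat (cartanMat D) w = 1)
    {y : G} (hy : y ∈ S.Gbar) (hcomm : y * S.tau hS hR hM c = S.tau hS hR hM c * y) : y ∈ S.Hbar := by
  have hmem : S.tau hS hR hM c ∈ S.Hbar := by rw [← S.tau_range hS hR hM]; exact ⟨c, rfl⟩
  obtain ⟨b, hb, w, hw, v, hv, rfl⟩ := S.mem_NF hS hR hy
  have hn := conj_nW_eq S hS hR hM hb hv hmem hmem hcomm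
  have hw0 : w = [] := by
    have h1 := hfix w hn
    have hact : ∀ a < D.nroots, act D w a = a := fun a ha =>
      col_inj hR hdet (hR.act_lt w ha) ha (by rw [col_act hR w ha, h1, Matrix.one_mulVec])
    have h0 : invCount D w = 0 := by
      rw [invCount_eq, Finset.card_eq_zero, Finset.eq_empty_iff_forall_notMem]
      intro a ha
      rw [mem_invFin] at ha
      exact hR.not_pos_and_neg ha.1 (hact a ha.1.1 ▸ ha.2)
    rwa [show invCount D w = w.length from hw, List.length_eq_zero_iff] at h0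
  subst hw0
  have hv' : v = 1 := by
    have h : invSet D ([] : List (Fin D.rank)) = ∅ := Set.eq_empty_iff_forall_notMem.2 fun a ha =>
      hR.not_pos_and_neg ha.1 ha.2
    rw [h, Sys.US] at hv
    simpa using hv
  subst hv'
  rw [Sys.nW_nil, mul_one, mul_one] at hcomm ⊢
  obtain ⟨u, hu, h, hh, rfl⟩ := (S.mem_Bbar hS hR).1 hb
  rw [mul_assoc, S.Hbar_comm hS hR hM h hh _ hmem, ← mul_assoc, ← mul_assoc, mul_left_inj] at hcomm
  have hu1 : u = 1 := eq_one_of_commute_tau S hS hR hM hc hu (by rw [← hcomm, mul_inv_cancel_right])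
  rw [hu1, one_mul]
  exact hh

end

universe u

theorem exists_self_centralizing {D : ChevalleyDatum} {L : List ℕ} {δ d : ℕ}
    (hD : D ∈ [chevG2, chevB2, chevD4, chevF4, chevE6, chevE7, chevE8]) (hdet : (cartanMat D).det = (1 : ℤ))
    (hW : WeylOrder D L.prod) (heven : 2 ∣ L.prod) (hd : 2 < d) (hφ : d.totient = D.rank)
    (hLd : ∃ e ∈ L, d ∣ e)
    (hW' : ∀ r : ℕ, r.Prime → r ∣ L.prod → r ≤ d)
    {F : Type u} [Field F] [Fintype F] {q : ℕ} (hq : Fintype.card F = q) (hF : OrderFormula D L δ F)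
    (hK : ∀ (K : Type) [Field K] [Fintype K], OrderFormula D L δ K) (hLlen : L.length = D.rank)
    (hδ : δ ∣ L.prod) (hz : ¬ (q = 2 ∧ d = 6)) :
    ∃ H : Subgroup ↥(D.group F), IsCyclic ↥H ∧ Nat.card ↥H = ((cyclotomic d ℤ).eval (q : ℤ)).natAbs ∧
      Subgroup.centralizer (H : Set ↥(D.group F)) = H := by
  classical
  have hq1 : 1 < q := hq ▸ Fintype.one_lt_card
  have hcardF : Nat.card F = q := by rw [Nat.card_eq_fintype_card, hq]
  obtain ⟨r, hr, hord⟩ := Arith.exists_prime_orderOf_eq hq1 (show 1 < d by omega) hz (fun h => by omega)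
  haveI := Fact.mk hr
  have hdr : d < r := Arith.lt_of_orderOf_eq (by omega) hord
  have hrW : ¬ r ∣ L.prod := fun h => by have := hW' r hr h; omega
  have hr2 : r ≠ 2 := by rintro rfl; exact hrW heven
  have hrδ : ¬ r ∣ δ := fun h => hrW (h.trans hδ)
  have hLr : ∀ e ∈ L, ¬ r ∣ e := fun e he h => hrW (h.trans (List.dvd_prod he))
  have hrq : ¬ r ∣ q := fun h => by
    have := Arith.orderOf_natCast_eq_zero_of_dvd h
    omega
  have hrG : r ∣ Nat.card ↥(D.group F) := by
    refine dvd_of_one_le_padicValNat ?_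
    rw [padicValNat_group hF hr2 (hcardF ▸ hrq) hrδ hLr, hcardF, Arith.padicValNat_cyclotomic_orderOf hq1 hrq, hord]
    refine Nat.mul_pos ?_ (one_le_padicValNat_of_dvd ?_ ?_)
    · obtain ⟨e, he, hde⟩ := hLd
      exact List.length_pos_of_mem (List.mem_filter.2 ⟨he, by simpa using hde⟩)
    · exact Nat.sub_ne_zero_of_lt (Nat.one_lt_pow (by omega) hq1)
    · exact (Arith.dvd_pow_sub_one_iff_orderOf_dvd (by omega) d).2 (hord ▸ dvd_rfl)
  obtain ⟨x, hx⟩ := exists_prime_orderOf_dvd_card' r hrG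
  haveI : NeZero d := ⟨by omega⟩
  obtain ⟨p, hp⟩ := CharP.exists F
  haveI := Fact.mk (CharP.char_is_prime F p)
  let K := FiniteField.Extension F p d
  haveI : Fintype K := Fintype.ofFinite K
  set m := q ^ d - 1 with hmdef
  have hm0 : m ≠ 0 := Nat.sub_ne_zero_of_lt (Nat.one_lt_pow (by omega) hq1)
  haveI : NeZero m := ⟨hm0⟩
  have hcardK : Nat.card K = q ^ d := by rw [FiniteField.natCard_extension, hcardF]
  have hS : Rules D K := Chev.rules_of_mem K hD
  obtain ⟨len, hR⟩ := hS.root
  let S := glSys hS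
  have hM : S.HMul := glSys_HMul hS hR
  let A := cartanMat D
  have hA0 : A.det ≠ 0 := by rw [hdet]; exact one_ne_zero
  have hinj : Function.Injective (S.tau hS hR hM) := by
    refine (injective_iff_map_eq_one _).2 fun c hc => ?_
    have h1 : powMap A c = 1 := funext fun k => (S.θ_tau_eq_one_iff hS hR hM c).1 hc k
    have h2 : A * A.adjugate = 1 := by rw [Matrix.mul_adjugate, hdet, one_smul]
    rw [← powMap_one c, ← h2, powMap_mul, h1, powMap_one_right]
  -- the embedding of the group over `F`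
  let e : GL D.Idx F →* GL D.Idx K := Matrix.GeneralLinearGroup.map (algebraMap F K)
  have he : Function.Injective e := glMap_injective D (algebraMap F K)
  have heG : ∀ y : ↥(D.group F), e y.1 ∈ D.group K := fun y => map_group_le D (algebraMap F K) ⟨y.1, y.2, rfl⟩
  let σ : K →+* K := (FiniteField.Extension.frob F p d).toAlgHom.toRingHom
  have hσ : ∀ a : K, σ a = a ^ q := fun a => by
    show FiniteField.Extension.frob F p d a = _
    rw [FiniteField.Extension.frob_apply, hcardF]
  have hσim : ∀ a : K, σ a = a → ∃ b, algebraMap F K b = a := by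
    intro a ha
    let P : K[X] := X ^ q - X
    have hP : P ≠ 0 := FiniteField.X_pow_card_sub_X_ne_zero K hq1
    have hsub : Finset.univ.image (algebraMap F K) ⊆ P.roots.toFinset := fun b hb => by
      obtain ⟨b, -, rfl⟩ := Finset.mem_image.1 hb
      rw [Multiset.mem_toFinset, mem_roots hP]
      simp [P, IsRoot, ← map_pow, ← hq, FiniteField.pow_card]
    have heq := Finset.eq_of_subset_of_card_le hsub (by
      rw [Finset.card_image_of_injective _ (algebraMap F K).injective, Finset.card_univ, hq]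
      exact (Multiset.toFinset_card_le _).trans ((card_roots' P).trans
        (le_of_eq (FiniteField.X_pow_card_sub_X_natDegree_eq K hq1))))
    have : a ∈ P.roots.toFinset := by simp [P, hP, ← hσ, ha]
    rw [← heq, Finset.mem_image] at this
    obtain ⟨b, -, hb⟩ := this
    exact ⟨b, hb⟩
  let fr : GL D.Idx K →* GL D.Idx K := Matrix.GeneralLinearGroup.map σ
  have hfix : ∀ y : GL D.Idx F, fr (e y) = e y := fun y => by
    ext i j
    exact (FiniteField.Extension.frob F p d).commutes _
  have hfixed : ∀ g ∈ D.group K, fr g = g → ∃ y : ↥(D.group F), e y.1 = g := by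
    intro g hg hgf
    have hle : (Known.ChevSubfield.fixedGen (D := D) σ) ⊔
        (S.Hbar ⊓ MonoidHom.eqLocus (Known.ChevSubfield.glσ σ) (MonoidHom.id _)) ≤ (D.group F).map e := by
      refine sup_le ?_ ?_
      · rw [Known.ChevSubfield.fixedGen, Subgroup.closure_le]
        rintro g ⟨a, t, ht, hga⟩
        obtain ⟨t₀, rfl⟩ := hσim t ht
        by_cases ha : a < D.nroots
        · have hSF : Rules D F := Chev.rules_of_mem F hD
          refine ⟨(glSys hSF).x a t₀, ?_, Units.ext ?_⟩
          · rw [group_eq hSF]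
            exact Subgroup.subset_closure ⟨a, ha, t₀, rfl⟩
          · show (xGL D F a t₀ : Matrix D.Idx D.Idx F).map (algebraMap F K) = _
            rw [val_xGL hSF, x_map, hga]
        · refine ⟨1, one_mem _, ?_⟩
          rw [map_one]
          exact (Units.ext (by rw [hga, ChevalleyDatum.x, dif_neg ha, Units.val_one])).symm
      · rintro z ⟨hz, hzf⟩
        obtain ⟨c, rfl⟩ : ∃ c, S.tau hS hR hM c = z := by
          rw [← S.tau_range hS hR hM] at hz
          exact hz
        have hcq : c ^ q = c := hinj (by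
          rw [map_pow, ← map_tau hS hR σ hσ c]
          exact hzf)
        choose b hb using fun j => hσim (c j : K) (by
          rw [hσ, ← Units.val_pow_eq_pow_val, ← Pi.pow_apply, hcq])
        have hb0 : ∀ j, b j ≠ 0 := fun j h0 => (c j).ne_zero (by rw [← hb j, h0, map_zero])
        have hSF : Rules D F := Chev.rules_of_mem F hD
        obtain ⟨lenF, hRF⟩ := hSF.root
        let c₀ : Fin D.rank → Fˣ := fun j => Units.mk0 (b j) (hb0 j)
        refine ⟨(glSys hSF).tau hSF hRF (glSys_HMul hSF hRF) c₀, ?_, Units.ext ?_⟩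
        · rw [group_eq hSF, (glSys hSF).Gbar_eq hRF hSF]
          refine Subgroup.mem_sup_left ((glSys hSF).Hbar_le_Bbar ?_)
          rw [← (glSys hSF).tau_range hSF hRF (glSys_HMul hSF hRF)]
          exact ⟨c₀, rfl⟩
        · show ((glSys hSF).mat ((glSys hSF).tau hSF hRF (glSys_HMul hSF hRF) c₀)).map (algebraMap F K) =
            S.mat (S.tau hS hR hM c)
          rw [(glSys hSF).mat_tau hSF hRF, S.mat_tau hS hR hM, Matrix.diagonal_map (map_zero _)]
          congr 1
          funext a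
          rcases a with a | a
          · simp
          · simp [c₀, hb, Units.coe_prod]
    obtain ⟨y, hy, rfl⟩ := hle (Known.ChevSubfield.mem_fixed_decomp hS hR hg hgf)
    exact ⟨⟨y, hy⟩, rfl⟩
  -- the torus over `K`
  have hmK : m ∣ Nat.card K - 1 := by rw [hcardK]
  obtain ⟨f, hf⟩ := SylowLarge.exists_zmod_hom_units hmK
  have hfsurj : Function.Surjective f := ((Nat.bijective_iff_injective_and_card _).2 ⟨hf, by
    rw [Nat.card_units, hcardK, Nat.card_congr Multiplicative.toAdd, Nat.card_zmod]⟩).2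
  have hrm : r ∣ m := (Arith.dvd_pow_sub_one_iff_orderOf_dvd (by omega) d).2 (hord ▸ dvd_rfl)
  obtain ⟨g, hg⟩ := SylowLarge.exists_zmod_hom_units (K := K) (hrm.trans hmK)
  have hGK : D.group K = S.Gbar := group_eq hS
  have htau : ∀ c, S.tau hS hR hM c ∈ D.group K := fun c => by
    have hN : S.tau hS hR hM c ∈ S.Hbar := by rw [← S.tau_range hS hR hM]; exact ⟨c, rfl⟩
    rw [hGK, S.Gbar_eq hR hS]
    exact Subgroup.mem_sup_left (S.Hbar_le_Bbar hN)
  -- conjugate `x` into the split torus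
  let T : (Fin D.rank → Kˣ) →* ↥(D.group K) := (S.tau hS hR hM).codRestrict _ htau
  have hTinj : Function.Injective T := fun a b h => hinj (congrArg Subtype.val h)
  set v := padicValNat r m with hv
  obtain ⟨f', hf'⟩ := SylowLarge.exists_zmod_hom_units (K := K) (M := r ^ v) (pow_padicValNat_dvd.trans hmK)
  let φ : (Fin D.rank → Multiplicative (ZMod (r ^ v))) →* ↥(D.group K) := T.comp (f'.compLeft (Fin D.rank))
  have hφinj : Function.Injective φ := hTinj.comp hf'.comp_left
  let ψ : ↥(D.group F) →* ↥(D.group K) := (e.comp (D.group F).subtype).codRestrict _ heG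
  have hxK : orderOf (ψ x) = r := by
    rw [orderOf_injective ψ (fun a b h => Subtype.ext (he (congrArg Subtype.val h))), hx]
  obtain ⟨γ, t₀, ht₀⟩ : ∃ (γ : ↥(D.group K)) (t₀ : Fin D.rank → Kˣ), γ * ψ x * γ⁻¹ = T t₀ := by
    obtain ⟨Q, hQ⟩ := (IsPGroup.of_card (p := r) (n := 1) (by rw [Nat.card_zpowers, hxK, pow_one]) :
      IsPGroup r (Subgroup.zpowers (ψ x))).exists_le_sylow
    obtain ⟨R, hR'⟩ := (IsPGroup.of_card (p := r) (n := D.rank * v) (by
      rw [← Nat.card_congr (MonoidHom.ofInjective hφinj).toEquiv, SylowLarge.card_pi_zmod]) :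
      IsPGroup r φ.range).exists_le_sylow
    have hcard : Nat.card (R : Subgroup ↥(D.group K)) ≤ Nat.card φ.range := by
      rw [R.card_eq_multiplicity, ← Nat.card_congr (MonoidHom.ofInjective hφinj).toEquiv, SylowLarge.card_pi_zmod,
        Nat.factorization_def _ hr]
      refine Nat.pow_le_pow_right hr.pos (le_of_eq ?_)
      rw [padicValNat_group (hK K) hr2 (hcardK ▸ SylowLarge.not_dvd_pow hrq d) hrδ hLr,
        show (Nat.card K : ZMod r) = 1 by rw [hcardK, Nat.cast_pow, ← hord, pow_orderOf_eq_one],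
        orderOf_one, cyclotomic_one, ← hLlen]
      simp only [one_dvd, decide_true, List.filter_true, eval_sub, eval_X, eval_one, hcardK]
      rw [show ((q ^ d : ℕ) : ℤ) - 1 = (m : ℤ) by
        rw [hmdef, Nat.cast_sub (Nat.one_le_pow _ _ (by omega))]; rfl, Int.natAbs_natCast]
    have hRφ : (R : Subgroup ↥(D.group K)) = φ.range := (Subgroup.eq_of_le_of_card_ge hR' hcard).symm
    obtain ⟨γ, hγ⟩ := MulAction.exists_smul_eq ↥(D.group K) Q R
    have h1 : MulAut.conj γ (ψ x) ∈ ((γ • Q : Sylow r ↥(D.group K)) : Subgroup ↥(D.group K)) := by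
      rw [Sylow.smul_def, Sylow.pointwise_smul_def, ← MulAut.smul_def]
      exact Subgroup.smul_mem_pointwise_smul _ _ _ (hQ (Subgroup.mem_zpowers _))
    rw [hγ, hRφ] at h1
    obtain ⟨y, hy⟩ := h1
    exact ⟨γ, f'.compLeft (Fin D.rank) y, hy.symm⟩
  let t : GL D.Idx K := S.tau hS hR hM t₀
  have htx : (γ : GL D.Idx K) * e x.1 * (γ : GL D.Idx K)⁻¹ = t := congrArg Subtype.val ht₀
  have ht₀r : ∀ j, t₀ j ^ r = 1 := fun j => by
    have h1 : T (t₀ ^ r) = T 1 := by
      rw [map_pow, map_one, ← ht₀, conj_pow, ← hxK, pow_orderOf_eq_one, mul_one, mul_inv_cancel]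
    exact congrFun (hTinj h1) j
  have hg2 : g.range = (powMonoidHom r : Kˣ →* Kˣ).ker := by
    refine Subgroup.eq_of_le_of_card_ge ?_ (le_of_eq ?_)
    · rintro _ ⟨z, rfl⟩
      rw [MonoidHom.mem_ker, powMonoidHom_apply, ← map_pow, ← map_one g]
      congr 1
      exact Multiplicative.toAdd.injective (by simp)
    · rw [IsCyclic.card_powMonoidHom_ker, Nat.card_units, Nat.gcd_eq_right (hrm.trans hmK),
        ← Nat.card_congr (MonoidHom.ofInjective hg).toEquiv, Nat.card_congr Multiplicative.toAdd, Nat.card_zmod]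
  choose z hz using fun j => MonoidHom.mem_range.1 (hg2.ge (MonoidHom.mem_ker.2 (ht₀r j)))
  let vr : Fin D.rank → ZMod r := fun j => Multiplicative.toAdd (z j)
  have htv : t₀ = fun j => g (Multiplicative.ofAdd (vr j)) := funext fun j => by simp [vr, hz]
  have hv0 : vr ≠ 0 := by
    intro h0
    have h1 : t = 1 := by
      show S.tau hS hR hM t₀ = 1
      rw [htv, h0, ← map_one (S.tau hS hR hM)]
      exact congrArg _ (funext fun j => by simp)
    have h2 : e x.1 = 1 := by
      have := congrArg (fun y => (γ : GL D.Idx K)⁻¹ * y * γ) (htx.trans h1)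
      simpa [mul_assoc] using this
    have h3 : x = 1 := Subtype.ext (he (h2.trans (map_one e).symm))
    rw [h3, orderOf_one] at hx
    exact hr.one_lt.ne hx
  -- the Weyl group element
  have hdr' : ((cartanMat D).det : ZMod r) ≠ 0 := by rw [hdet, Int.cast_one]; exact one_ne_zero
  have hq0 : (q : ZMod r) ≠ 0 := by rwa [Ne, ZMod.natCast_eq_zero_iff]
  let h : GL D.Idx K := fr (γ : GL D.Idx K) * (γ : GL D.Idx K)⁻¹
  have hhG : h ∈ S.Gbar := by
    rw [← hGK]
    exact mul_mem (map_group_le D σ ⟨_, γ.2, rfl⟩) (inv_mem γ.2)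
  have hfrt : ∀ c, fr (S.tau hS hR hM c) = S.tau hS hR hM c ^ q := fun c => map_tau hS hR σ hσ c
  have hfrγ : fr (γ : GL D.Idx K) = h * γ := by simp [h]
  have hconj : ∀ y : GL D.Idx F, h * ((γ : GL D.Idx K) * e y * (γ : GL D.Idx K)⁻¹) * h⁻¹ =
      fr ((γ : GL D.Idx K) * e y * (γ : GL D.Idx K)⁻¹) := fun y => by
    rw [map_mul, map_mul, map_inv, hfix, hfrγ]
    group
  have hht : h * t * h⁻¹ = t ^ q := by
    rw [← hfrt, ← htx, hconj, htx]
  have hmemH : ∀ c, S.tau hS hR hM c ∈ S.Hbar := fun c => by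
    rw [← S.tau_range hS hR hM]; exact ⟨c, rfl⟩
  have hGt : ∀ {y}, y ∈ S.Hbar → ∃ c, S.tau hS hR hM c = y := fun {y} hy => by
    rwa [← S.tau_range hS hR hM] at hy
  obtain ⟨b, hb, w, -, v', hv', hdec⟩ := S.mem_NF hS hR hhG
  have hn : S.nW w * t * (S.nW w)⁻¹ = t ^ q := by
    refine conj_nW_eq S hS hR hM hb hv' (hmemH t₀) (pow_mem (hmemH t₀) q) ?_
    rw [← hdec]
    exact mul_inv_eq_iff_eq_mul.1 hht
  have hveig : vr ∈ eigMod (wMat A w) (q : ZMod r)⁻¹ := by
    refine eigen_of_conj_nW S hS hR hM hdr' g hg hq0 ?_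
    rw [← htv]
    exact hn
  have hζ : orderOf (q : ZMod r)⁻¹ = d := by
    rw [← hord, orderOf_eq_orderOf_iff]
    intro k
    rw [inv_pow, inv_eq_one]
  have hreg : ∀ s < D.nroots, ∏ j : Fin D.rank, t₀ j ^ D.cartan j s ≠ 1 := fun s hs h1 => by
    apply pairMod_col_ne_zero hR hW hA0 hrW (by omega) hφ hζ hveig hv0 hs
    rw [htv, prod_zpow_hom, ← map_one g] at h1
    simpa [pairMod, col] using congrArg Multiplicative.toAdd (hg h1)
  have hfix' : ∀ u : List (Fin D.rank), S.nW u * t * (S.nW u)⁻¹ = t → wMat A u = 1 := fun u hu => by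
    refine wMat_eq_one_of_fix hR hW hA0 hrW (by omega) hφ hζ hveig hv0 ?_
    refine eigen_one_of_conj S hS hR hM hdr' g hg ?_
    rw [← htv]
    exact hu
  have hCK : ∀ y ∈ S.Gbar, y * t = t * y → y ∈ S.Hbar := fun y hy hc =>
    mem_Hbar_of_commute S hS hR hM hA0 hreg hfix' hy hc
  have hnG : S.nW w ∈ S.Gbar := S.Nbar_le_Gbar hS hR (S.nW_mem_Nbar w)
  have hh1 : (S.nW w)⁻¹ * h ∈ S.Hbar := by
    refine hCK _ (mul_mem (inv_mem hnG) hhG) ?_
    have e1 : S.nW w * t = t ^ q * S.nW w := mul_inv_eq_iff_eq_mul.1 hn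
    have e2 : h * t = t ^ q * h := mul_inv_eq_iff_eq_mul.1 hht
    calc (S.nW w)⁻¹ * h * t = (S.nW w)⁻¹ * (S.nW w * t) * ((S.nW w)⁻¹ * h) := by
          rw [mul_assoc, e2, e1]; group
      _ = _ := by group
  have hact : ∀ z ∈ S.Hbar, h * z * h⁻¹ = S.nW w * z * (S.nW w)⁻¹ := fun z hz => by
    have e1 : ((S.nW w)⁻¹ * h) * z = z * ((S.nW w)⁻¹ * h) := S.Hbar_comm hS hR hM _ hh1 _ hz
    calc h * z * h⁻¹ = S.nW w * (((S.nW w)⁻¹ * h) * z) * h⁻¹ := by group
      _ = _ := by rw [e1]; group
  -- coordinates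
  let M := wMat A w
  let Mr := wMat A w.reverse
  have hMrM : Mr * M = 1 := by
    have := wMat_mul_reverse A (cartanMat_self hR) w.reverse
    rwa [List.reverse_reverse] at this
  have hMchar : Mrᵀ.charpoly = cyclotomic d ℤ := by
    rw [Matrix.charpoly_transpose]
    refine charpoly_eq_cyclotomic (wMat_pow_eq_one hR hW hA0 w.reverse) hrW (by omega) hφ
      (show orderOf (q : ZMod r) = d from hord) ?_ hv0
    rw [mem_eigMod_iff_pairMod]
    intro c
    have hc := (mem_eigMod_iff_pairMod _ _ _).1 hveig (Mr *ᵥ c)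
    rw [Matrix.mulVec_mulVec, wMat_mul_reverse A (cartanMat_self hR), Matrix.one_mulVec] at hc
    rw [hc, ← mul_assoc, mul_inv_cancel₀ hq0, one_mul]
  obtain ⟨hcyc, hcard⟩ := kerMod_facts hd hq1 hMchar
  let ΦT : (Fin D.rank → Multiplicative (ZMod m)) →* GL D.Idx K :=
    (S.tau hS hR hM).comp (f.compLeft (Fin D.rank))
  have hΦT : Function.Injective ΦT := hinj.comp hf.comp_left
  have hΦr : ∀ z ∈ S.Hbar, ∃ y, ΦT y = z := fun z hz => by
    obtain ⟨c, rfl⟩ := hGt hz
    choose y hy using fun j => hfsurj (c j)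
    exact ⟨y, congrArg (S.tau hS hR hM) (funext hy)⟩
  have hNiff : ∀ y : Fin D.rank → Multiplicative (ZMod m),
      y ∈ kerMod ((q : ℤ) • 1 - Mrᵀ) m ↔
        ∀ c, pairMod (fun j => Multiplicative.toAdd (y j)) (Mr *ᵥ c) =
          (q : ZMod m) * pairMod (fun j => Multiplicative.toAdd (y j)) c := by
    intro y
    have e1 : ∀ a, ∑ b, ((((q : ℤ) • (1 : Matrix (Fin D.rank) (Fin D.rank) ℤ) - Mrᵀ) a b : ℤ) : ZMod m) *
        Multiplicative.toAdd (y b) = (q : ZMod m) * Multiplicative.toAdd (y a) -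
          pairMod (fun j => Multiplicative.toAdd (y j)) (Mr *ᵥ Pi.single a 1) := fun a => by
      simp only [Matrix.sub_apply, Int.cast_sub, sub_mul, Finset.sum_sub_distrib, pairMod,
        Matrix.mulVec_single_one, Matrix.col_apply, Matrix.transpose_apply]
      congr 1
      rw [Finset.sum_eq_single a (fun b _ hb => by simp [Matrix.one_apply_ne hb.symm]) (by simp)]
      simp
    refine ⟨fun hy c => ?_, fun hy a => ?_⟩
    · have hc : c = ∑ a, c a • Pi.single a (1 : ℤ) := by
        conv_lhs => rw [← Finset.univ_sum_single c]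
        exact Finset.sum_congr rfl fun a _ => by rw [← Pi.single_smul, smul_eq_mul, mul_one]
      rw [hc, Matrix.mulVec_sum, pairMod_sum, pairMod_sum, Finset.mul_sum]
      refine Finset.sum_congr rfl fun a _ => ?_
      rw [Matrix.mulVec_smul, pairMod_smul, pairMod_smul, pairMod_single]
      have h1 := (e1 a).symm.trans (hy a)
      rw [sub_eq_zero] at h1
      rw [← h1]
      ring
    · rw [e1, hy, pairMod_single, sub_self]
  have hiff : ∀ y, S.nW w * ΦT y * (S.nW w)⁻¹ = ΦT y ^ q ↔ y ∈ kerMod ((q : ℤ) • 1 - Mrᵀ) m := by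
    intro y
    let yv : Fin D.rank → ZMod m := fun j => Multiplicative.toAdd (y j)
    have hroot : ∀ s, ∏ j : Fin D.rank, f (y j) ^ D.cartan j s = f (Multiplicative.ofAdd (pairMod yv (col D s))) :=
      fun s => prod_zpow_hom f _ _
    have hpow : ∀ s, ∏ j : Fin D.rank, ((fun j => f (y j)) ^ q) j ^ D.cartan j s =
        f (Multiplicative.ofAdd ((q : ZMod m) * pairMod yv (col D s))) := fun s => by
      rw [← nsmul_eq_mul, ofAdd_nsmul, map_pow, ← hroot, ← Finset.prod_pow]
      exact Finset.prod_congr rfl fun j _ => by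
        rw [Pi.pow_apply, ← zpow_natCast, ← zpow_natCast, ← _root_.zpow_mul, ← _root_.zpow_mul, mul_comm]
    rw [hNiff]
    constructor
    · intro e c
      have e' : S.nW w * S.tau hS hR hM (fun j => f (y j)) * (S.nW w)⁻¹ =
          S.tau hS hR hM ((fun j => f (y j)) ^ q) := by rw [map_pow]; exact e
      have key : ∀ c' : Fin D.rank → ℤ, pairMod yv c' = (q : ZMod m) * pairMod yv (M *ᵥ c') := by
        have hsimple : ∀ k : Fin D.rank, pairMod yv (col D (D.simple k)) =
            (q : ZMod m) * pairMod yv (M *ᵥ col D (D.simple k)) := fun k => by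
          have h1 := root_eq_of_conj S hS hR hM e' (hR.simple_lt k k.2)
          rw [hroot, hpow, col_act hR w (hR.simple_lt k k.2)] at h1
          exact Multiplicative.ofAdd.injective (hf h1)
        intro c'
        have hc : c' = ∑ k, (A.adjugate *ᵥ c') k • col D (D.simple k) := by
          have h2 : A *ᵥ (A.adjugate *ᵥ c') = c' := by
            rw [Matrix.mulVec_mulVec, Matrix.mul_adjugate, hdet, one_smul, Matrix.one_mulVec]
          conv_lhs => rw [← h2]
          funext j
          simp [A, col, cartanMat, Matrix.mulVec, dotProduct, mul_comm]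
        rw [hc, Matrix.mulVec_sum, pairMod_sum, pairMod_sum, Finset.mul_sum]
        refine Finset.sum_congr rfl fun k _ => ?_
        rw [Matrix.mulVec_smul, pairMod_smul, pairMod_smul, hsimple k]
        ring
      rw [key (Mr *ᵥ c), Matrix.mulVec_mulVec, wMat_mul_reverse A (cartanMat_self hR), Matrix.one_mulVec]
    · intro hy
      have key : ∀ c' : Fin D.rank → ℤ, pairMod yv c' = (q : ZMod m) * pairMod yv (M *ᵥ c') := fun c' => by
        rw [← hy (M *ᵥ c'), Matrix.mulVec_mulVec, hMrM, Matrix.one_mulVec]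
      obtain ⟨c'', hc''⟩ := hGt (S.nW_conj_Hbar hS hR w (hmemH (fun j => f (y j))))
      show S.nW w * S.tau hS hR hM (fun j => f (y j)) * (S.nW w)⁻¹ = S.tau hS hR hM (fun j => f (y j)) ^ q
      rw [← hc'', ← map_pow]
      have hk : c'' / (fun j => f (y j)) ^ q ∈ rootKer D K := fun k => by
        have hs : act D w.reverse (D.simple k) < D.nroots := hR.act_lt _ (hR.simple_lt k k.2)
        have h1 := root_eq_of_conj S hS hR hM hc''.symm hs
        rw [hR.act_act_reverse w (hR.simple_lt k k.2), hroot, key, col_act hR w.reverse (hR.simple_lt k k.2),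
          Matrix.mulVec_mulVec, wMat_mul_reverse A (cartanMat_self hR), Matrix.one_mulVec, ← hpow] at h1
        simp only [Pi.div_apply, div_zpow, Finset.prod_div_distrib, div_eq_one]
        exact h1.symm
      have h2 := (S.θ_tau_eq_one_iff hS hR hM _).2 hk
      rw [_root_.map_div] at h2
      exact div_eq_one.1 h2
  -- the centraliser of `x`
  let H : Subgroup ↥(D.group F) := Subgroup.centralizer {x}
  let ι : H →* GL D.Idx K := (MulAut.conj (γ : GL D.Idx K)).toMonoidHom.comp
    (e.comp ((D.group F).subtype.comp H.subtype))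
  have hι : Function.Injective ι := (MulAut.conj (γ : GL D.Idx K)).injective.comp
    (he.comp ((D.group F).subtype_injective.comp H.subtype_injective))
  have hιH : ∀ y : H, ι y ∈ S.Hbar := fun y => by
    refine hCK _ ?_ ?_
    · rw [← hGK]
      exact mul_mem (mul_mem γ.2 (heG y.1)) (inv_mem γ.2)
    · have hc : x * y.1 = y.1 * x := Subgroup.mem_centralizer_iff.1 y.2 x rfl
      have hc' := congrArg (fun u : ↥(D.group F) => e u.1) hc
      simp only [Subgroup.coe_mul, map_mul] at hc'
      show (γ : GL D.Idx K) * e y.1.1 * (γ : GL D.Idx K)⁻¹ * t = t * ((γ : GL D.Idx K) * e y.1.1 * (γ : GL D.Idx K)⁻¹)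
      rw [← htx]
      calc _ = (γ : GL D.Idx K) * (e y.1.1 * e x.1) * (γ : GL D.Idx K)⁻¹ := by group
        _ = _ := by rw [← hc']; group
  have himg : ι.range = (kerMod ((q : ℤ) • 1 - Mrᵀ) m).map ΦT := by
    ext z
    constructor
    · rintro ⟨y, rfl⟩
      obtain ⟨c, hc⟩ := hΦr _ (hιH y)
      refine ⟨c, (hiff c).1 ?_, hc⟩
      rw [hc, ← hact _ (hιH y)]
      have h1 := hconj y.1.1
      obtain ⟨c', hc'⟩ := hGt (hιH y)
      show h * ((γ : GL D.Idx K) * e y.1.1 * (γ : GL D.Idx K)⁻¹) * h⁻¹ = _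
      rw [h1, show (γ : GL D.Idx K) * e y.1.1 * (γ : GL D.Idx K)⁻¹ = S.tau hS hR hM c' from hc'.symm, hfrt, hc']
    · rintro ⟨c, hc, rfl⟩
      have hz : ΦT c ∈ S.Hbar := hmemH (fun j => f (c j))
      have e1 : h * ΦT c * h⁻¹ = fr (ΦT c) := by
        rw [hact _ hz, (hiff c).2 hc]
        exact (hfrt _).symm
      obtain ⟨y, hy⟩ := hfixed ((γ : GL D.Idx K)⁻¹ * ΦT c * γ)
        (mul_mem (mul_mem (inv_mem γ.2) (htau (fun j => f (c j)))) γ.2) (by
          rw [map_mul, map_mul, map_inv, hfrγ, ← e1]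
          group)
      have hyx : y ∈ H := by
        refine Subgroup.mem_centralizer_iff.2 fun u hu => ?_
        rw [Set.mem_singleton_iff.1 hu]
        refine Subtype.ext (he ?_)
        rw [Subgroup.coe_mul, Subgroup.coe_mul, map_mul, map_mul, hy]
        have e2 : e x.1 = (γ : GL D.Idx K)⁻¹ * t * γ := by rw [← htx]; group
        have e3 : ΦT c * t = t * ΦT c := S.Hbar_comm hS hR hM _ hz _ (hmemH t₀)
        rw [e2]
        calc _ = (γ : GL D.Idx K)⁻¹ * (t * ΦT c) * γ := by group
          _ = _ := by rw [← e3]; group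
      refine ⟨⟨y, hyx⟩, ?_⟩
      show (γ : GL D.Idx K) * e y.1 * (γ : GL D.Idx K)⁻¹ = _
      rw [hy]
      group
  let E : H ≃* kerMod ((q : ℤ) • 1 - Mrᵀ) m :=
    ((MonoidHom.ofInjective hι).trans (MulEquiv.subgroupCongr himg)).trans
      (Subgroup.equivMapOfInjective _ ΦT hΦT).symm
  refine ⟨H, E.isCyclic.2 hcyc, (Nat.card_congr E.toEquiv).trans hcard, le_antisymm ?_ ?_⟩
  · exact Subgroup.centralizer_le (Set.singleton_subset_iff.2 (Subgroup.mem_centralizer_iff.2 fun u hu => by
      rw [Set.mem_singleton_iff.1 hu]))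
  · intro y hy
    refine Subgroup.mem_centralizer_iff.2 fun u hu => ?_
    have h1 := S.Hbar_comm hS hR hM _ (hιH ⟨u, hu⟩) _ (hιH ⟨y, hy⟩)
    rw [← map_mul, ← map_mul] at h1
    exact congrArg Subtype.val (hι h1)

end Cfsg.Agent.LieTori
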